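import Cfsg.Agent.H665.RIM.Defs
import Cfsg.Agent.H86.TI.ThreeMcL
import Cfsg.Agent.H68.Bounds
import Cfsg.Agent.H235.Ore.McL
import Cfsg.Agent.S2047

/-!
# S4816, the rows of the McLaughlin group (helper344, task 6219)

* `nball_five`, `nball_seven`, `nball_eleven` : over a faithful linear character of the kernel of `3.McL` there are irreducible
  characters of degree divisible by 5, by 7, by 11.
-/

set_option autoImplicit false
set_option linter.unusedSectionVars false

open Subgroup Cfsg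
open scoped ComplexConjugate

namespace Cfsg.Agent.H344.RIM

open Cfsg.Agent.H86.TI Cfsg.Agent.H407.TI Cfsg.Agent.Characters.Core Cfsg.Agent.H665.RIM

universe u v

/-- orthogonal nonzero columns: the number of rows -/
theorem le_card_of_cols {ι : Type*} {n : ℕ} (X : Finset ι) (c : Fin n → ι → ℂ) (N : Fin n → ℕ) (hN : ∀ i, N i ≠ 0)
    (ho : ∀ i j, ∑ x ∈ X, c i x * conj (c j x) = if i = j then (N i : ℂ) else 0) : n ≤ X.card := by
  have h1 : ∀ ψ ∈ X, ∑ i, Complex.normSq (c i ψ) / N i ≤ 1 := fun ψ hψ => bessel X c N hN ho hψ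
  have h2 : ∑ ψ ∈ X, ∑ i, Complex.normSq (c i ψ) / N i = n := by
    rw [Finset.sum_comm]
    have h3 : ∀ i : Fin n, ∑ ψ ∈ X, Complex.normSq (c i ψ) / N i = 1 := by
      intro i
      have h4 := ho i i
      rw [if_pos rfl] at h4
      have h5 : ∑ ψ ∈ X, Complex.normSq (c i ψ) = N i := by
        have h6 : ((∑ ψ ∈ X, Complex.normSq (c i ψ) : ℝ) : ℂ) = ((N i : ℝ) : ℂ) := by
          rw [Complex.ofReal_sum, Complex.ofReal_natCast, ← h4]
          exact Finset.sum_congr rfl fun ψ _ => (Complex.mul_conj _).symm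
        exact_mod_cast h6
      rw [← Finset.sum_div, h5, div_self]
      exact_mod_cast hN i
    rw [Finset.sum_congr rfl fun i _ => h3 i]
    simp
  have h3 := Finset.sum_le_card_nsmul X _ 1 h1
  rw [h2, nsmul_eq_mul, mul_one] at h3
  exact_mod_cast h3

section

variable {E : Type u} [Group E] {Z : Subgroup E} {G : Type v} [Group G] {π : E →* G} {L : Loc G}

/-- the extra elements -/
theorem exists_extra [Finite E] (h : Ext Z π) (e : LocE π L) (h8 : ∃ o : G, orderOf o = 8) :
    ∃ f : Fin 3 → E, (∀ i, Good π (f i)) ∧ ∀ i, orderOf (π (f i)) = (![4, 12, 8] : Fin 3 → ℕ) i := by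
  obtain ⟨o, ho⟩ := h8
  obtain ⟨O, πO, O8⟩ := h.exists_lift o (n := 8) (by norm_num) (by rw [← ho, pow_orderOf_eq_one])
  have Q4 : e.Q ^ 4 = 1 := by
    have : e.Q ^ 4 = e.Q * e.Q * (e.Q * e.Q) := by simp only [pow_succ, pow_zero, one_mul, mul_assoc]
    rw [this, e.QQ, e.T2]
  have gQ : Good π e.Q := h.good_of_pow (n := 4) (by norm_num) Q4
  have gO : Good π O := h.good_of_pow (n := 8) (by norm_num) O8
  have hx : Commute (π e.Q) (π e.X) := by
    have := congrArg π e.QX
    rwa [map_mul, map_mul] at this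
  have q4 : π e.Q ^ 4 = 1 := by rw [← map_pow, Q4, map_one]
  have x3 : π e.X ^ 3 = 1 := by rw [← map_pow, e.X3, map_one]
  have oQ : orderOf (π e.Q) = 4 := by
    have h1 : orderOf (π e.Q) ∣ 2 ^ 2 := orderOf_dvd_of_pow_eq_one (by norm_num; exact q4)
    obtain ⟨k, hk, hk'⟩ := (Nat.dvd_prime_pow Nat.prime_two).1 h1
    have h2 : ¬ orderOf (π e.Q) ∣ 2 := by
      intro h3
      have h4 : π e.Q ^ 2 = 1 := orderOf_dvd_iff_pow_eq_one.1 h3
      rw [← map_pow, pow_two, e.QQ, e.πT] at h4
      have h5 := L.ot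
      rw [h4, orderOf_one] at h5
      norm_num at h5
    interval_cases k
    · rw [hk'] at h2; norm_num at h2
    · rw [hk'] at h2; norm_num at h2
    · rw [hk']; norm_num
  have oX : orderOf (π e.X) = 3 := by rw [e.πX, L.ox]
  have gQX : Good π (e.Q * e.X) := by
    refine h.good_mul gQ e.gX (m := 9) (n := 4) ?_ ?_
    · rw [hx.mul_pow, pow_red q4 9, pow_red x3 9]; simp
    · rw [hx.mul_pow, pow_red q4 4, pow_red x3 4]; simp
  refine ⟨![e.Q, e.Q * e.X, O], ?_, ?_⟩
  · intro i
    fin_cases i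
    · exact gQ
    · exact gQX
    · exact gO
  · intro i
    fin_cases i
    · exact oQ
    · show orderOf (π (e.Q * e.X)) = 12
      rw [map_mul, hx.orderOf_mul_eq_mul_orderOf_of_coprime (by rw [oQ, oX]; norm_num), oQ, oX]
    · show orderOf (π O) = 8
      rw [πO, ho]

theorem ord_ne : ∀ (i : Fin 17) (j : Fin 3), ordf i ≠ (![4, 12, 8] : Fin 3 → ℕ) j := by decide

theorem ord_inj : ∀ i j : Fin 3, (![4, 12, 8] : Fin 3 → ℕ) i = (![4, 12, 8] : Fin 3 → ℕ) j → i = j := by decide

/-- **at least 20 characters over `lam`** -/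
theorem twenty_le [Finite E] [Fintype (IrrCharacter E)] (h : Ext Z π) (e : LocE π L) (h8 : ∃ o : G, orderOf o = 8)
    (lam : Z →* ℂˣ) [DecidablePred fun χ : IrrCharacter E => Over Z lam (χ : E → ℂ)] :
    20 ≤ (Finset.univ.filter fun χ : IrrCharacter E => Over Z lam (χ : E → ℂ)).card := by
  classical
  obtain ⟨f, hf, hfo⟩ := exists_extra h e h8
  have hfin : Finite G := Nat.finite_of_card_ne_zero (by rw [L.cardG]; norm_num)
  let g : Fin (17 + 3) → E := Fin.append e.fam f
  have gl : ∀ i, g (Fin.castAdd 3 i) = e.fam i := fun i => Fin.append_left e.fam f i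
  have gr : ∀ i, g (Fin.natAdd 17 i) = f i := fun i => Fin.append_right e.fam f i
  have hg : ∀ i, Good π (g i) := by
    intro i
    refine Fin.addCases (fun i => ?_) (fun i => ?_) i
    · rw [gl]; exact e.good h i
    · rw [gr]; exact hf i
  have key : ∀ (i : Fin 17) (j : Fin 3), ¬ IsConj (π (e.fam i)) (π (f j)) := by
    intro i j hc
    have h1 := orderOf_isConj hc
    rw [e.map_fam, ordG, hfo] at h1
    exact ord_ne i j h1
  have hne : ∀ i j, i ≠ j → ¬ IsConj (π (g i)) (π (g j)) := by
    intro i j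
    refine Fin.addCases (fun i => ?_) (fun i => ?_) i
    · refine Fin.addCases (fun j => ?_) (fun j => ?_) j
      · intro hij
        rw [gl, gl, e.map_fam, e.map_fam]
        exact nconjG L i j fun h => hij (by rw [h])
      · intro _
        rw [gl, gr]
        exact key i j
    · refine Fin.addCases (fun j => ?_) (fun j => ?_) j
      · intro _
        rw [gl, gr]
        exact fun h => key j i h.symm
      · intro hij
        rw [gr, gr]
        intro hc
        have h1 := orderOf_isConj hc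
        rw [hfo, hfo] at h1
        apply hij
        rw [ord_inj i j h1]
  refine le_card_of_cols (n := 17 + 3) _ (fun i χ => (χ : E → ℂ) (g i))
    (fun i => Nat.card (centralizer ({π (g i)} : Set G))) (fun i => Nat.card_pos.ne') ?_
  intro i j
  split_ifs with hij
  · subst hij
    exact h.col_self lam (hg i) rfl
  · exact h.col_ne lam (hne i j hij)

/-- a column of characters of absolute value at least one -/
theorem card_le_of_col [Finite E] [Fintype (IrrCharacter E)] (h : Ext Z π)
    (lam : Z →* ℂˣ) [DecidablePred fun χ : IrrCharacter E => Over Z lam (χ : E → ℂ)] {g : E} (hg : Good π g) {n : ℕ}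
    (hn : Nat.card (centralizer ({π g} : Set G)) = n)
    (h1 : ∀ χ : IrrCharacter E, Over Z lam (χ : E → ℂ) → 1 ≤ Complex.normSq ((χ : E → ℂ) g)) :
    (Finset.univ.filter fun χ : IrrCharacter E => Over Z lam (χ : E → ℂ)).card ≤ n := by
  have h2 := h.col_self lam hg hn
  have h3 : ∑ χ ∈ Finset.univ.filter (fun χ : IrrCharacter E => Over Z lam (χ : E → ℂ)),
      Complex.normSq ((χ : E → ℂ) g) = n := by
    have h6 : ((∑ χ ∈ Finset.univ.filter (fun χ : IrrCharacter E => Over Z lam (χ : E → ℂ)),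
        Complex.normSq ((χ : E → ℂ) g) : ℝ) : ℂ) = ((n : ℝ) : ℂ) := by
      rw [Complex.ofReal_sum, Complex.ofReal_natCast, ← h2]
      exact Finset.sum_congr rfl fun ψ _ => (Complex.mul_conj _).symm
    exact_mod_cast h6
  have h4 := Finset.card_nsmul_le_sum (Finset.univ.filter fun χ : IrrCharacter E => Over Z lam (χ : E → ℂ))
    (fun χ => Complex.normSq ((χ : E → ℂ) g)) 1 (fun χ hχ => h1 χ (Finset.mem_filter.1 hχ).2)
  rw [h3, nsmul_eq_mul, mul_one] at h4
  exact_mod_cast h4

theorem one_le_of_int {x : ℂ} {n : ℤ} (h : Complex.normSq x = (n : ℝ)) (hn : n ≠ 0) : 1 ≤ Complex.normSq x := by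
  have h1 : 0 ≤ n := by
    have := Complex.normSq_nonneg x
    rw [h] at this
    exact_mod_cast this
  rw [h]
  exact_mod_cast (show (1 : ℤ) ≤ n by omega)

/-- **the three primes** -/
theorem exists_dvd [Finite E] (h : Ext Z π) (L : Loc G) (h8 : ∃ o : G, orderOf o = 8) (hperf : commutator E = ⊤)
    {lam : Z →* ℂˣ} (hl : lam ≠ 1) {p : ℕ} (hp : p = 5 ∨ p = 7 ∨ p = 11) :
    ∃ χ : E → ℂ, IsIrrCharacter E χ ∧ Over Z lam χ ∧ p ∣ charDegree χ := by
  classical
  obtain ⟨e⟩ := exists_locE h L
  have := finite_irr (G := E)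
  have := Fintype.ofFinite (IrrCharacter E)
  have h20 := twenty_le h e h8 lam
  by_contra hno
  push Not at hno
  have hdeg : ∀ χ : IrrCharacter E, (χ : E → ℂ) 1 = ((charDegree (χ : E → ℂ) : ℤ) : ℂ) := by
    intro χ
    rw [H669.Basic.charDegree_eq χ.2]; push_cast; rfl
  rcases hp with rfl | rfl | rfl
  · have h1 := card_over h L hperf hl
    have h2 : Nat.card {χ : IrrCharacter E // Over Z lam (χ : E → ℂ) ∧ ¬ 125 ∣ charDegree (χ : E → ℂ)} =
        (Finset.univ.filter fun χ : IrrCharacter E => Over Z lam (χ : E → ℂ)).card := by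
      rw [Nat.card_eq_fintype_card, Fintype.card_subtype]
      congr 1
      ext χ
      simp only [Finset.mem_filter, Finset.mem_univ, true_and]
      exact ⟨fun h => h.1, fun h => ⟨h, fun h3 => hno χ χ.2 h (Dvd.dvd.trans (by norm_num) h3)⟩⟩
    omega
  · have h1 := card_le_of_col h lam (g := e.Y) (h.good_of_pow (n := 7) (by norm_num) e.Y7)
      (n := 14) (by rw [e.πY]; exact L.cy) (by
        intro χ hχ
        obtain ⟨a, b, h9, k14⟩ := Cfsg.Agent.H243.TI.seven eps_sq (isIrr_isCharacter χ.2) (t := 1) (y := e.Y) (m := e.M)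
          (one_mul 1) e.Y7 (by rw [one_mul, mul_one]) e.MY (by rw [one_mul, mul_one]) (hdeg χ)
        rw [one_mul] at h9
        rw [h9]
        refine one_le_of_int (nsq_eps a b) ?_
        intro h0
        have hb : b = 0 := by nlinarith [sq_nonneg (2 * a - b), sq_nonneg b]
        have ha : a = 0 := by nlinarith [sq_nonneg (2 * a - b), sq_nonneg b]
        rw [ha, hb] at k14
        apply hno χ χ.2 hχ
        have h3 : ((7 : ℕ) : ℤ) ∣ (charDegree (χ : E → ℂ) : ℤ) := by
          simpa using k14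
        exact_mod_cast h3)
    omega
  · have h1 := card_le_of_col h lam (g := e.V) (h.good_of_pow (n := 11) (by norm_num) e.V11)
      (n := 11) (by rw [e.πV]; exact L.cv) (by
        intro χ hχ
        obtain ⟨a, b, h9, k14⟩ := Cfsg.Agent.H243.TI.eleven del_sq (isIrr_isCharacter χ.2) e.V11 e.VV (hdeg χ)
        rw [h9]
        refine one_le_of_int (nsq_del a b) ?_
        intro h0
        have hb : b = 0 := by nlinarith [sq_nonneg (2 * a - b), sq_nonneg b]
        have ha : a = 0 := by nlinarith [sq_nonneg (2 * a - b), sq_nonneg b]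
        rw [ha, hb] at k14
        apply hno χ χ.2 hχ
        have h3 : ((11 : ℕ) : ℤ) ∣ (charDegree (χ : E → ℂ) : ℤ) := by
          simpa using k14
        exact_mod_cast h3)
    omega

end

section model

open Cfsg.Agent.McLType.X275 Cfsg.Agent.McLType.Gens Cfsg.Agent.McLType.Model

theorem exists_eight : ∃ o : G1, orderOf o = 8 := by
  obtain ⟨e⟩ := Cfsg.Agent.H235.Ore.McL.exists_iso isoMcL_G1
  refine ⟨e (Cfsg.Agent.H235.Ore.McL.wk Cfsg.Agent.H235.Ore.McL.x8A), ?_⟩
  rw [e.orderOf_eq, ← Subgroup.orderOf_coe]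
  exact Cfsg.Agent.H235.Ore.McL.o8A

/-- **`McL`, `p = 5, 7, 11`** -/
theorem nball {S : Type u} [Group S] (h : Spor.IsoMcL S) {p : ℕ} (hp : p = 5 ∨ p = 7 ∨ p = 11) : NBall p S := by
  intro m hm _ E _ _ π hs hc hperf hk l hl
  obtain ⟨f⟩ := h
  obtain ⟨f'⟩ := isoMcL_G1
  let g : S ≃* G1 := f.trans f'.symm
  have hdvd : Nat.card π.ker ∣ 3 := by
    have h1 : H51.Mult.PCE (f.toMonoidHom.comp π) := ⟨f.surjective.comp hs, by
      intro x hx
      have h2 : f (π x) = 1 := hx
      rw [f.map_eq_one_iff] at h2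
      exact hc h2, hperf⟩
    have h2 := (H68.Bounds.ker_of_hasCyclic S2047.result h1).2
    have h3 : (f.toMonoidHom.comp π).ker = π.ker := by
      ext x
      exact f.map_eq_one_iff
    rwa [h3] at h2
  have h3 : Nat.card π.ker = 3 := by
    rcases (Nat.dvd_prime Nat.prime_three).1 hdvd with h1 | h1
    · omega
    · exact h1
  have hE : Ext π.ker (g.toMonoidHom.comp π) := by
    refine ⟨g.surjective.comp hs, ?_, hc, h3⟩
    ext x
    exact g.map_eq_one_iff
  obtain ⟨L⟩ := exists_loc
  have hl1 : l ≠ 1 := by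
    intro h1
    have : Subsingleton π.ker := ⟨fun a b => hl (by rw [h1]; rfl)⟩
    have := Nat.card_of_subsingleton (1 : π.ker)
    omega
  obtain ⟨χ, h4, h5, h6⟩ := exists_dvd hE L exists_eight hperf hl1 hp
  refine ⟨χ, h4, fun z => ?_, h6⟩
  have := h5 z 1
  rw [mul_one] at this
  rw [this, mul_comm]

theorem nball_five {S : Type u} [Group S] (h : Spor.IsoMcL S) : NBall 5 S := nball h (Or.inl rfl)

theorem nball_seven {S : Type u} [Group S] (h : Spor.IsoMcL S) : NBall 7 S := nball h (Or.inr (Or.inl rfl))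

theorem nball_eleven {S : Type u} [Group S] (h : Spor.IsoMcL S) : NBall 11 S := nball h (Or.inr (Or.inr rfl))

end model

end Cfsg.Agent.H344.RIM
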